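import Cfsg.Agent.H725.SpecMain
import Cfsg.Agent.H66.Cod.Base
import Cfsg.Agent.S0493

/-!
# Codegrees of simple groups (helper725, S4795): `H = L_2(q)`, `L_3(q)` and the group `U_3(4)`
-/

set_option autoImplicit false

namespace Cfsg.Agent.H725.Cd

open Cfsg Cfsg.Agent.H725.Cod Cfsg.Agent.H725.SLFacts Cfsg.Agent.OrdDiv Cfsg.Agent.H66.Cod
open Cfsg.Agent.H686.CharKit Cfsg.Agent.H677.CodPrime Cfsg.Agent.H677.CodMultiset

universe u v

/-- from `Cov` to the inclusion of the codegrees -/
theorem sub_of_cov {S : Type u} {H : Type v} [Group S] [Group H] [Finite S] [Finite H] [IsSimpleGroup S]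
    [IsSimpleGroup H] {k : ℕ} (h : Cov S H k) : Sub S H := by
  intro χ
  by_cases hχ : χ = one S
  · exact ⟨one H, by rw [hχ, cod_one, cod_one]⟩
  · obtain ⟨ψ, hψ, hd⟩ := h.deg _ ⟨χ, fun h1 => hχ (Subtype.ext h1), rfl⟩
    refine ⟨ψ, ?_⟩
    have hψ' : ψ ≠ one H := fun h1 => hψ (by rw [h1]; rfl)
    have h1 := cod_mul hψ'
    rw [hd, h.card, ← cod_mul hχ] at h1
    have h2 : (k * charDegree (χ : S → ℂ)) * cod ψ = (k * charDegree (χ : S → ℂ)) * cod χ := by
      rw [mul_comm, h1]; ring
    exact (Nat.eq_of_mul_eq_mul_left (Nat.mul_pos h.pos (charDegree_pos χ)) h2).symm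

theorem sub_infl {S : Type u} {L : Type v} [Group S] [Group L] [Finite S] [Finite L] (N : Subgroup L) [N.Normal]
    (h : Sub S (L ⧸ N)) : Sub S L := by
  intro χ
  obtain ⟨ψ, hψ⟩ := h χ
  exact ⟨infl N ψ, by rw [cod_infl, hψ]⟩

theorem of_good {S : Type u} {L : Type v} [Group S] [Group L] [Finite L] [IsSimpleGroup S]
    (hS : ¬ ∀ a b : S, a * b = b * a) (h : Good S L) : Nonempty (S ≃* L ⧸ Subgroup.center L) := by
  rcases h with ⟨⟨e⟩⟩ | h
  swap
  · exact h
  have hc : Subgroup.center S = ⊥ := by
    rcases (inferInstance : (Subgroup.center S).Normal).eq_bot_or_eq_top with h | h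
    · exact h
    · exfalso
      apply hS
      intro a b
      have : b ∈ Subgroup.center S := by rw [h]; trivial
      exact Subgroup.mem_center_iff.1 this a
  have h3 : Subgroup.center L = ⊥ := by
    rw [eq_bot_iff]
    intro z hz
    have h4 : e.symm z ∈ Subgroup.center S := by
      rw [Subgroup.mem_center_iff] at hz ⊢
      intro g
      apply e.injective
      rw [map_mul, map_mul, e.apply_symm_apply, hz]
    rw [hc, Subgroup.mem_bot] at h4
    rw [Subgroup.mem_bot, ← e.apply_symm_apply z, h4, map_one]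
  exact ⟨e.trans ((QuotientGroup.quotientMulEquivOfEq h3).trans (QuotientGroup.quotientBot (G := L))).symm⟩

theorem small_iso' (T : OrderTable.{u}) (T' : OrderTable.{0})
    (hK : ∀ (S : Type u) [Group S] [Finite S] [IsSimpleGroup S], IsKnownSimple' S)
    {S : Type u} {H : Type v} [Group S] [Group H] [Finite S] [Finite H] [IsSimpleGroup S]
    [IsSimpleGroup H] (hS : ¬ ∀ a b : S, a * b = b * a) {k : ℕ} (h : Cov S H k) {n : ℕ} (hn : n = 2 ∨ n = 3)
    {F : Type} [Field F] [Fintype F] (e : Nonempty (H ≃* Matrix.ProjectiveSpecialLinearGroup (Fin n) F)) :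
    Nonempty (S ≃* H) := by
  obtain ⟨e⟩ := e
  have hsub := sub_of_cov h
  have hsub' : Sub S (Matrix.SpecialLinearGroup (Fin n) F) :=
    sub_infl (Subgroup.center (Matrix.SpecialLinearGroup (Fin n) F)) (hsub.congr_right e)
  rcases hn with rfl | rfl
  · by_cases h5 : 5 ≤ Fintype.card F
    · obtain ⟨f⟩ := of_good hS (SimTwo.simOK_two T T' hK h5 S hsub')
      exact ⟨f.trans e.symm⟩
    · have hna : ¬ IsMulCommutative S := fun h1 => hS h1.is_comm.comm
      have h60 : 60 ≤ Nat.card S := by
        by_contra hcon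
        have hc : ¬ IsCyclic S := fun h => hna h.commutative
        have := S0493.result hc (by omega)
        omega
      have hcard : Nat.card (Matrix.ProjectiveSpecialLinearGroup (Fin 2) F) = k * Nat.card S := by
        rw [← Nat.card_congr e.toEquiv, h.card]
      have hidx := index_two (F := F)
      have hidx' : (Subgroup.center (Matrix.SpecialLinearGroup (Fin 2) F)).index =
        Nat.card (Matrix.ProjectiveSpecialLinearGroup (Fin 2) F) := rfl
      rw [hidx', hcard] at hidx
      have hk := h.pos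
      have h2 : 1 < Fintype.card F := Fintype.one_lt_card
      have h3 : 60 ≤ k * Nat.card S := h60.trans (Nat.le_mul_of_pos_left _ hk)
      have h4 : Fintype.card F = 4 := by
        have h6 : Fintype.card F = 2 ∨ Fintype.card F = 3 ∨ Fintype.card F = 4 := by omega
        rcases h6 with h6 | h6 | h6
        · rw [h6] at hidx; norm_num at hidx; omega
        · rw [h6] at hidx; norm_num at hidx; omega
        · exact h6
      have hQ := qs_two (F := F) (by omega)
      have hsim : IsSimpleGroup (Matrix.ProjectiveSpecialLinearGroup (Fin 2) F) := hQ.simple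
      have h7 : Nat.card S = Nat.card (Matrix.ProjectiveSpecialLinearGroup (Fin 2) F) := by
        rw [hcard]
        rw [h4] at hidx
        norm_num at hidx
        have : k = 1 := by
          by_contra hne
          have : 2 * 60 ≤ k * Nat.card S := Nat.mul_le_mul (by omega) h60
          omega
        rw [this, one_mul]
      obtain ⟨p, f, hp, hf, hF⟩ := exists_pp F
      have hreal : H902.Art.Real (.L 2) p f (Nat.card (Matrix.ProjectiveSpecialLinearGroup (Fin 2) F)) :=
        H902.Names.psl_real hp hf hF le_rfl (by rw [← hF]; omega)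
      have hKL : IsKnownSimple' (Matrix.ProjectiveSpecialLinearGroup (Fin 2) F) :=
        Or.inr (Or.inr (Or.inl ⟨F, _, _, 2, le_rfl, fun _ => by omega, ⟨MulEquiv.refl _⟩⟩))
      rcases Cls.iso_of_card T T' (hK S) hna hKL hQ.quotient_nonabelian hreal h7 with ⟨⟨f⟩⟩ | ⟨h8, -⟩
      · exact ⟨f.trans e.symm⟩
      · exfalso
        rw [h4, ← hcard, h8] at hidx
        norm_num at hidx
  · obtain ⟨f⟩ := of_good hS (SpecMain.simOK_three T T' hK S hsub')
    exact ⟨f.trans e.symm⟩

end Cfsg.Agent.H725.Cd
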