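import Cfsg.Agent.H725.Cd.Iso

/-!
# Codegrees of simple groups (helper725, S4795): the group `U_3(4)`
-/

set_option autoImplicit false

namespace Cfsg.Agent.H725.Cd

open Cfsg Cfsg.Agent.H725.Cod Cfsg.Agent.H725.SLFacts Cfsg.Agent.OrdDiv Cfsg.Agent.H66.Cod Cfsg.Agent.H902
open Cfsg.Agent.H686.CharKit Cfsg.Agent.H677.CodPrime Cfsg.Agent.H677.CodMultiset

universe u v

/-- `L_2(25)` has a degree `24` or `26` -/
theorem exists_deg {F : Type} [Field F] [Fintype F] (hF : Fintype.card F = 25) :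
    ∃ χ : IrrCharacter (Matrix.ProjectiveSpecialLinearGroup (Fin 2) F),
      charDegree (χ : Matrix.ProjectiveSpecialLinearGroup (Fin 2) F → ℂ) = 24 ∨
      charDegree (χ : Matrix.ProjectiveSpecialLinearGroup (Fin 2) F → ℂ) = 26 := by
  classical
  by_contra hcon
  push Not at hcon
  have hodd : Odd (Fintype.card F) := by rw [hF]; decide
  obtain ⟨h1, h2⟩ := S2299.result hodd
  obtain ⟨a1, a2, -, -, a3, a4⟩ := h2 (by omega)
  rw [hF] at a2 a3 a4
  norm_num at a1 a2 a3 a4
  let L := Matrix.SpecialLinearGroup (Fin 2) F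
  have hfin : Finite (IrrCharacter L) := Characters.Core.finite_irr
  have hfin' : Finite (IrrCharacter (L ⧸ Subgroup.center L)) := Characters.Core.finite_irr
  have := Fintype.ofFinite (IrrCharacter (L ⧸ Subgroup.center L))
  let A : Set (IrrCharacter L) := {χ | (χ : L → ℂ) 1 = 1}
  let B : Set (IrrCharacter L) := {χ | (χ : L → ℂ) 1 = 25}
  let C : Set (IrrCharacter L) := {χ | (χ : L → ℂ) 1 = 13}
  let D : Set (IrrCharacter L) := {χ | (χ : L → ℂ) 1 = 12}
  have hA : A.ncard = 1 := a1
  have hB : B.ncard = 1 := a2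
  have hC : C.ncard = 2 := a3
  have hD : D.ncard = 2 := a4
  have hdeg : ∀ χ : IrrCharacter (L ⧸ Subgroup.center L), infl (Subgroup.center L) χ ∈ A ∪ B ∪ C ∪ D := by
    intro χ
    obtain ⟨h3, h4⟩ := hcon χ
    have h5 := charDegree_infl (Subgroup.center L) χ
    have h6 := charDegree_irr (infl (Subgroup.center L) χ)
    rw [h5] at h6
    have h7 := h1 _ (infl (Subgroup.center L) χ).2
    rw [hF] at h7
    norm_num at h7
    rcases h7 with h7 | h7 | h7 | h7 | h7 | h7
    · exact Or.inl (Or.inl (Or.inl h7))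
    · exact Or.inl (Or.inl (Or.inr h7))
    · exfalso
      apply h4
      have : ((charDegree (χ : L ⧸ Subgroup.center L → ℂ) : ℕ) : ℂ) = ((26 : ℕ) : ℂ) := by
        rw [h6]; push_cast; exact h7
      exact Nat.cast_injective this
    · exfalso
      apply h3
      have : ((charDegree (χ : L ⧸ Subgroup.center L → ℂ) : ℕ) : ℂ) = ((24 : ℕ) : ℂ) := by
        rw [h6]; push_cast; exact h7
      exact Nat.cast_injective this
    · exact Or.inl (Or.inr h7)
    · exact Or.inr h7
  have hcard : Fintype.card (IrrCharacter (L ⧸ Subgroup.center L)) ≤ 6 := by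
    rw [← Nat.card_eq_fintype_card, ← Set.ncard_univ,
      ← Set.ncard_image_of_injective _ (infl_injective (Subgroup.center L))]
    calc _ ≤ (A ∪ B ∪ C ∪ D).ncard := Set.ncard_le_ncard (by rintro _ ⟨χ, -, rfl⟩; exact hdeg χ)
      _ ≤ (A ∪ B ∪ C).ncard + D.ncard := Set.ncard_union_le _ _
      _ ≤ ((A ∪ B).ncard + C.ncard) + D.ncard := by gcongr; exact Set.ncard_union_le _ _
      _ ≤ ((A.ncard + B.ncard) + C.ncard) + D.ncard := by gcongr; exact Set.ncard_union_le _ _
      _ = 6 := by rw [hA, hB, hC, hD]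
  have hsum := sum_deg_sq (G := L ⧸ Subgroup.center L)
  have hidx := index_two (F := F)
  rw [hF] at hidx
  norm_num at hidx
  have hle : ∀ χ : IrrCharacter (L ⧸ Subgroup.center L), charDegree (χ : L ⧸ Subgroup.center L → ℂ) ^ 2 ≤ 625 := by
    intro χ
    have h5 := charDegree_infl (Subgroup.center L) χ
    have h6 := charDegree_irr (infl (Subgroup.center L) χ)
    rw [h5] at h6
    have key : ∀ m : ℕ, m ≤ 25 → (infl (Subgroup.center L) χ : L → ℂ) 1 = m →
        charDegree (χ : L ⧸ Subgroup.center L → ℂ) ^ 2 ≤ 625 := by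
      intro m hm h7
      rw [h7] at h6
      rw [Nat.cast_injective h6]
      nlinarith
    rcases hdeg χ with ((h7 | h7) | h7) | h7
    · exact key 1 (by norm_num) (by rw [show (infl (Subgroup.center L) χ : L → ℂ) 1 = 1 from h7]; norm_num)
    · exact key 25 (by norm_num) (by rw [show (infl (Subgroup.center L) χ : L → ℂ) 1 = 25 from h7]; norm_num)
    · exact key 13 (by norm_num) (by rw [show (infl (Subgroup.center L) χ : L → ℂ) 1 = 13 from h7]; norm_num)
    · exact key 12 (by norm_num) (by rw [show (infl (Subgroup.center L) χ : L → ℂ) 1 = 12 from h7]; norm_num)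
  have h8 : Nat.card (L ⧸ Subgroup.center L) ≤ 6 * 625 := by
    rw [← hsum]
    calc _ ≤ ∑ _χ : IrrCharacter (L ⧸ Subgroup.center L), 625 := Finset.sum_le_sum fun χ _ => hle χ
      _ = Fintype.card (IrrCharacter (L ⧸ Subgroup.center L)) * 625 := by
        rw [Finset.sum_const, Finset.card_univ, smul_eq_mul]
      _ ≤ _ := Nat.mul_le_mul_right _ hcard
  have h9 : (Subgroup.center L).index = Nat.card (L ⧸ Subgroup.center L) := rfl
  rw [← h9] at h8
  have h11 : (Subgroup.center (Matrix.SpecialLinearGroup (Fin 2) F)).index ≤ 3750 := h8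
  omega

theorem kill_U3' (T : OrderTable.{u}) (T' : OrderTable.{0})
    (hK : ∀ (S : Type u) [Group S] [Finite S] [IsSimpleGroup S], IsKnownSimple' S)
    {S : Type u} {H : Type v} [Group S] [Group H] [Finite S] [Finite H] [IsSimpleGroup S]
    [IsSimpleGroup H] {k : ℕ} (h : Cov S H k) (hp : Nat.card H = 62400) (hk : k = 8) (hu : UniqDZ 2 H) : False := by
  subst hk
  have hcard : Nat.card S = 7800 := by
    have := h.card
    omega
  have hna : ¬ IsMulCommutative S := by
    intro h1
    let _ : CommGroup S := { (inferInstance : Group S) with mul_comm := h1.is_comm.comm }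
    have h2 := IsSimpleGroup.prime_card (α := S)
    rw [hcard] at h2
    norm_num at h2
  have h5 : Fact (Nat.Prime 5) := ⟨by norm_num⟩
  have : Fintype (GaloisField 5 2) := Fintype.ofFinite _
  have hF : Fintype.card (GaloisField 5 2) = 5 ^ 2 := by
    rw [← Nat.card_eq_fintype_card, GaloisField.card 5 2 (by omega)]
  have hF' : Fintype.card (GaloisField 5 2) = 25 := by rw [hF]; norm_num
  have hQ := qs_two (F := GaloisField 5 2) (by omega)
  have hsim : IsSimpleGroup (Matrix.ProjectiveSpecialLinearGroup (Fin 2) (GaloisField 5 2)) := hQ.simple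
  have hidx := index_two (F := GaloisField 5 2)
  rw [hF'] at hidx
  norm_num at hidx
  have h9 : (Subgroup.center (Matrix.SpecialLinearGroup (Fin 2) (GaloisField 5 2))).index =
    Nat.card (Matrix.ProjectiveSpecialLinearGroup (Fin 2) (GaloisField 5 2)) := rfl
  have hc : Nat.card (Matrix.ProjectiveSpecialLinearGroup (Fin 2) (GaloisField 5 2)) = 7800 := by
    rw [← h9]
    omega
  have hreal : Art.Real (.L 2) 5 2 (Nat.card (Matrix.ProjectiveSpecialLinearGroup (Fin 2) (GaloisField 5 2))) :=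
    Names.psl_real h5.1 (by norm_num) hF le_rfl (by norm_num)
  have hKL : IsKnownSimple' (Matrix.ProjectiveSpecialLinearGroup (Fin 2) (GaloisField 5 2)) :=
    Or.inr (Or.inr (Or.inl ⟨GaloisField 5 2, _, _, 2, le_rfl, fun _ => by omega, ⟨MulEquiv.refl _⟩⟩))
  rcases Cls.iso_of_card T T' (hK S) hna hKL hQ.quotient_nonabelian hreal (by rw [hcard, hc]) with ⟨⟨e⟩⟩ | ⟨h8, -⟩
  swap
  · rw [hc] at h8
    norm_num at h8
  -- degrees
  have hdeg : ∀ d, d ≠ 1 → (∃ χ : IrrCharacter S, charDegree (χ : S → ℂ) = d) → NDeg H (8 * d) := by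
    rintro d hd ⟨χ, hχ⟩
    refine h.deg d ⟨χ, fun h1 => hd ?_, hχ⟩
    rw [← hχ, h1]
    exact charDegree_one (G := S)
  have hP : Art.P 2 62400 = 64 := by
    rw [show 62400 = 2 ^ 6 * 975 by norm_num, Art.P_pow_self Nat.prime_two (by norm_num)]
    norm_num
  have hP5 : Art.P 5 7800 = 25 := by
    rw [show 7800 = 5 ^ 2 * 312 by norm_num, Art.P_pow_self h5.1 (by norm_num)]
    norm_num
  obtain ⟨χ, hχ⟩ := exists_deg hF'
  have hdχ : charDegree (pull e χ : S → ℂ) =
      charDegree (χ : Matrix.ProjectiveSpecialLinearGroup (Fin 2) (GaloisField 5 2) → ℂ) := by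
    unfold charDegree
    rw [pull_apply, map_one]
  rcases hχ with hχ | hχ
  · have h1 := hdeg 24 (by norm_num) ⟨pull e χ, by rw [hdχ, hχ]⟩
    have h2 := hu _ h1 (by rw [hp, hP]; norm_num)
    rw [hp, hP] at h2
    norm_num at h2
  · have h1 := hdeg 26 (by norm_num) ⟨pull e χ, by rw [hdχ, hχ]⟩
    have hlie : IsLieTypeChar 5 S :=
      Or.inl ⟨GaloisField 5 2, inferInstance, inferInstance, inferInstance, 2, le_rfl, fun _ => by omega, ⟨e⟩⟩
    obtain ⟨χ', hχ'⟩ := Cls.exists_st (by norm_num) hlie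
    rw [hcard, hP5] at hχ'
    have h2 := hdeg 25 (by norm_num) ⟨χ', hχ'⟩
    obtain ⟨α, -, hα⟩ := h1
    obtain ⟨β, -, hβ⟩ := h2
    have := Characters.Core.finite_irr (G := H)
    have := Fintype.ofFinite (IrrCharacter H)
    classical
    have h3 := sum_deg_sq (G := H)
    have hne : α ≠ β := by
      rintro rfl
      omega
    have h4 : ∑ χ ∈ ({α, β} : Finset (IrrCharacter H)), charDegree (χ : H → ℂ) ^ 2 ≤ Nat.card H := by
      rw [← h3]
      exact Finset.sum_le_sum_of_subset (Finset.subset_univ _)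
    rw [Finset.sum_pair hne, hα, hβ, hp] at h4
    norm_num at h4

end Cfsg.Agent.H725.Cd
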