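import Mathlib
import Cfsg.Agent.H902.Enum
import Cfsg.Agent.H902.Cross
import Cfsg.Agent.OrdDiv.Core

/-!
# Codegrees of simple groups (helper725, S4795): the small groups

`M` a given small number; the orders `N` of groups of Lie type in a characteristic `r` other than `p` with
`M = k N`, `k |N|_r² < N`.
-/

set_option autoImplicit false

namespace Cfsg.Agent.H725.Cd

open Cfsg.Agent.H902.Art Cfsg.Agent.OrdDiv

/-- the factorization by trial division -/
def facAux : ℕ → ℕ → ℕ → List (ℕ × ℕ)
  | 0, _, _ => []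
  | k + 1, p, n =>
    if n ≤ 1 then [] else
      if n % p = 0 then
        let e := (List.range 60).foldl (fun a i => if n % p ^ (i + 1) = 0 then i + 1 else a) 0
        (p, e) :: facAux k (p + 1) (n / p ^ e)
      else facAux k (p + 1) n

/-- the factorization of a number whose prime divisors are less than `80` -/
def fac (n : ℕ) : List (ℕ × ℕ) := facAux 80 2 n

/-- the test -/
def chk (p M : ℕ) : Bool :=
  (fac M).all fun x => (x.1 == p) || (List.range (x.2 + 1)).all fun v => (ents x.1 v).all fun a =>
    !(M % val x.1 a == 0 && decide (M / val x.1 a * (x.1 ^ v) ^ 2 < val x.1 a)) || val x.1 a == M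

theorem of_chk {p M₀ : ℕ} (hv : valid (fac M₀) M₀ = true) (hc : chk p M₀ = true) {Y : H902.Art.Sh} {r g k N : ℕ}
    (hY : H902.Art.Real Y r g N) (hk : M₀ = k * N) (hrp : r ≠ p) (hlt : k * P r N ^ 2 < N) : N = M₀ := by
  have hr := hY.hp
  have hM₀ : M₀ ≠ 0 := (valid_pos hv).ne'
  have hN : N ≠ 0 := by rintro rfl; exact hM₀ (by rw [hk, mul_zero])
  have hk0 : k ≠ 0 := by rintro rfl; exact hM₀ (by rw [hk, zero_mul])
  have hexp := P_prime_exp hY
  have hpos : 1 ≤ N.factorization r := by
    rw [← hexp]
    exact Nat.mul_pos hY.hf (NN_pos hY)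
  have hd : r ^ N.factorization r ∣ M₀ := (P_dvd r N).trans (by rw [hk]; exact dvd_mul_left _ _)
  obtain ⟨e, he, hle⟩ := exists_pair hv hr hpos hd
  unfold chk at hc
  rw [List.all_eq_true] at hc
  have h1 := hc _ he
  have h2 : (r == p) = false := by simpa using hrp
  simp only [h2, Bool.false_or] at h1
  rw [List.all_eq_true] at h1
  have h3 := h1 (N.factorization r) (List.mem_range.2 (by omega))
  rw [List.all_eq_true] at h3
  have h4 := h3 _ (mem_ents hY hexp)
  rw [val_eq hY] at h4
  by_contra hne
  have h5 : (N == M₀) = false := by simpa using hne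
  have h6 : M₀ / N = k := by rw [hk]; exact Nat.mul_div_cancel _ (Nat.pos_of_ne_zero hN)
  rw [h5, Bool.or_false, h6] at h4
  have h7 : M₀ % N = 0 := by rw [hk]; exact Nat.mul_mod_left _ _
  rw [h7] at h4
  have h8 : k * (r ^ N.factorization r) ^ 2 < N := hlt
  simp [h8] at h4

/-- the small groups: `(p, order)` -/
def smallL : List (ℕ × ℕ) :=
  [(3, 25920), (5, 4680000), (7, 138297600), (3, 1721606400), (17, 1004497044480), (3, 4245696), (2, 25920),
    (3, 3265920), (2, 1451520), (3, 4585351680), (2, 13685760), (3, 258190571520), (2, 9196830720),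
    (2, 227787103272960), (3, 65784756654489600), (2, 174182400), (3, 4952179814400), (3, 6065280),
    (3, 6048), (7, 5663616), (2, 5515776)]

theorem small_valid : ∀ x ∈ smallL, valid (fac x.2) x.2 = true := by decide +kernel

theorem small_chk : ∀ x ∈ smallL, chk x.1 x.2 = true := by decide +kernel

theorem small_iso {p M₀ : ℕ} (hx : (p, M₀) ∈ smallL) {Y : H902.Art.Sh} {r g k N : ℕ}
    (hY : H902.Art.Real Y r g N) (hk : M₀ = k * N) (hrp : r ≠ p) (hlt : k * P r N ^ 2 < N) : N = M₀ :=
  of_chk (small_valid _ hx) (small_chk _ hx) hY hk hrp hlt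

end Cfsg.Agent.H725.Cd
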