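import Mathlib
import Cfsg.Agent.H725.Cd.Small

/-!
# Codegrees of simple groups (helper725, S4795): `H = U_3(q)` in cross characteristic
-/

set_option autoImplicit false

namespace Cfsg.Agent.H725.Cd

open Finset Cfsg.Agent.H902.Art

theorem num_U3 (q : ℕ) : num (.U 3) q = (q ^ 2 - 1) * (q ^ 3 + 1) := by
  show ∏ i ∈ range 2, (if Even i then q ^ (i + 2) - 1 else q ^ (i + 2) + 1) = _
  rw [Finset.prod_range_succ, Finset.prod_range_one]
  simp

/-- the order of `U_3(q)`, `q = t + 3` -/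
theorem U3_eq {p f M : ℕ} (h : H902.Art.Real (.U 3) p f M) : ∃ t, p ^ f = t + 3 ∧
    Nat.gcd 3 (t + 4) * M = (t + 3) ^ 3 * ((t + 2) * (t + 4) ^ 2 * (t ^ 2 + 5 * t + 7)) := by
  have hok : 3 ≤ 3 ∧ (3 = 3 → 3 ≤ p ^ f) := h.ok
  have hq := hok.2 rfl
  obtain ⟨t, ht⟩ := Nat.exists_eq_add_of_le' hq
  refine ⟨t, ht, ?_⟩
  have h1 := h.eq
  rw [num_U3, ht] at h1
  have h2 : dd (.U 3) (t + 3) = Nat.gcd 3 (t + 4) := rfl
  have h3 : NN (.U 3) = 3 := rfl
  rw [h2, h3] at h1
  rw [h1]
  have h4 : (t + 3) ^ 2 - 1 = (t + 2) * (t + 4) := by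
    have : (t + 3) ^ 2 = (t + 2) * (t + 4) + 1 := by ring
    rw [this, Nat.add_sub_cancel]
  rw [h4]
  ring

/-- the `r`-part -/
theorem U3_P {p f M : ℕ} (h : H902.Art.Real (.U 3) p f M) {t : ℕ} (ht : p ^ f = t + 3)
    (hE : Nat.gcd 3 (t + 4) * M = (t + 3) ^ 3 * ((t + 2) * (t + 4) ^ 2 * (t ^ 2 + 5 * t + 7)))
    {r : ℕ} (hr : r.Prime) (hrp : r ≠ p) :
    P r (Nat.gcd 3 (t + 4)) * P r M = P r (t + 2) * P r (t + 4) ^ 2 * P r (t ^ 2 + 5 * t + 7) := by
  have h1 := h.not_dvd_q hr hrp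
  rw [ht] at h1
  have h0 : Nat.gcd 3 (t + 4) ≠ 0 := by
    intro h2
    have := Nat.eq_zero_of_gcd_eq_zero_left h2
    omega
  rw [← P_mul h0 h.M_ne, hE, P_mul (by positivity) (by positivity), P_mul (by positivity) (by positivity),
    P_mul (by positivity) (by positivity), P_eq_one (fun h2 => h1 (hr.dvd_of_dvd_pow h2)), one_mul, pow_two,
    P_mul (by positivity) (by positivity), ← pow_two]

theorem gcd_three (n : ℕ) : (3 ∣ n ∧ Nat.gcd 3 n = 3) ∨ (¬ 3 ∣ n ∧ Nat.gcd 3 n = 1) := by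
  by_cases h : 3 ∣ n
  · left; exact ⟨h, Nat.gcd_eq_left h⟩
  · right; exact ⟨h, (Nat.Prime.coprime_iff_not_dvd Nat.prime_three).2 h⟩

set_option maxHeartbeats 1000000 in
/-- `r`-parts: either `|U_3(q)|_r ^ 4 < |U_3(q)|` or `q + 1` is a power of `r` -/
theorem U3_or {p f M : ℕ} (h : H902.Art.Real (.U 3) p f M) {t : ℕ} (ht : p ^ f = t + 3)
    (hE : Nat.gcd 3 (t + 4) * M = (t + 3) ^ 3 * ((t + 2) * (t + 4) ^ 2 * (t ^ 2 + 5 * t + 7)))
    {r : ℕ} (hr : r.Prime) (hrp : r ≠ p) :
    P r M ^ 4 < M ∨ (P r (t + 4) = t + 4 ∧ ((r ≠ 2 ∧ P r M = (t + 4) ^ 2) ∨ (r = 2 ∧ P r M = 2 * (t + 4) ^ 2))) := by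
  have hP := U3_P h ht hE hr hrp
  have hrq := h.not_dvd_q hr hrp
  rw [ht] at hrq
  have hM0 := h.M_ne
  have hPM : 0 < P r M := P_pos hr
  -- the order is not too small
  have hdM : (t + 3) ^ 3 * ((t + 2) * (t + 4) ^ 2 * (t ^ 2 + 5 * t + 7)) ≤ 3 * M := by
    rw [← hE]
    exact Nat.mul_le_mul_right _ (Nat.gcd_le_left _ (by norm_num))
  set E := (t + 3) ^ 3 * ((t + 2) * (t + 4) ^ 2 * (t ^ 2 + 5 * t + 7)) with hEdef
  by_cases hA : r ∣ t + 4
  · by_cases hr2 : r = 2
    · -- `r = 2`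
      subst hr2
      have hC : P 2 (t ^ 2 + 5 * t + 7) = 1 := by
        apply P_eq_one
        have : Odd (t ^ 2 + 5 * t + 7) := by
          have : Even t := by
            obtain ⟨c, hc⟩ := hA
            exact ⟨c - 2, by omega⟩
          obtain ⟨c, rfl⟩ := this
          exact ⟨2 * c ^ 2 + 5 * c + 3, by ring⟩
        exact fun h2 => (Nat.not_even_iff_odd.2 this) (even_iff_two_dvd.2 h2)
      have hd : P 2 (Nat.gcd 3 (t + 4)) = 1 := by
        apply P_eq_one
        rcases gcd_three (t + 4) with h2 | h2 <;> rw [h2.2] <;> norm_num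
      rw [hC, hd, one_mul, mul_one] at hP
      obtain ⟨c, hc⟩ := hA
      rcases Nat.even_or_odd c with ⟨c', hc'⟩ | hodd
      · -- `4 ∣ t + 4`
        have e2 : P 2 (t + 2) = 2 := by
          have h3 : t + 2 = 2 * (2 * (c' - 1) + 1) := by omega
          rw [h3]
          exact P_two_two_mul ⟨c' - 1, rfl⟩
        rw [e2] at hP
        rcases P_two_eq_or (a := t + 4) (by omega) with h3 | h3
        · right
          refine ⟨h3, Or.inr ⟨rfl, by rw [hP, h3]⟩⟩
        · left
          have h4 : 6561 * (P 2 M) ^ 4 ≤ 16 * (t + 4) ^ 8 := by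
            calc 6561 * (P 2 M) ^ 4 = 16 * (3 * P 2 (t + 4)) ^ 8 := by rw [hP]; ring
              _ ≤ 16 * (t + 4) ^ 8 := Nat.mul_le_mul_left _ (Nat.pow_le_pow_left h3 8)
          have h5 : 48 * (t + 4) ^ 8 + (6513 * t ^ 8 + 155928 * t ^ 7 + 1625307 * t ^ 6 + 9636663 * t ^ 5 +
            35553390 * t ^ 4 + 83570565 * t ^ 3 + 122158914 * t ^ 2 + 101413920 * t + 36535200) = 6561 * E := by
            rw [hEdef]; ring
          have h6 : 48 * (t + 4) ^ 8 < 6561 * E := by
            rw [← h5]; exact Nat.lt_add_of_pos_right (by positivity)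
          clear h5
          generalize (t + 4) ^ 8 = X at h4 h6
          omega
      · -- `t + 4 = 2 c`, `c` odd
        have e2 : P 2 (t + 4) = 2 := by
          rw [hc]
          exact P_two_two_mul hodd
        left
        have h3 : P 2 M ≤ 4 * (t + 2) := by
          rw [hP, e2]
          have := P_le (r := 2) (a := t + 2) (by omega)
          omega
        have h4 : (P 2 M) ^ 4 ≤ 256 * (t + 2) ^ 4 := by
          calc (P 2 M) ^ 4 ≤ (4 * (t + 2)) ^ 4 := Nat.pow_le_pow_left h3 4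
            _ = _ := by ring
        obtain ⟨s, rfl⟩ : ∃ s, t = s + 2 := ⟨t - 2, by obtain ⟨e, he⟩ := hodd; omega⟩
        have h5 : 768 * (s + 2 + 2) ^ 4 + (s ^ 8 + 40 * s ^ 7 + 699 * s ^ 6 + 6971 * s ^ 5 + 42632 * s ^ 4 +
          160461 * s ^ 3 + 355632 * s ^ 2 + 412692 * s + 181392) = E := by
          rw [hEdef]; ring
        have h6 : 768 * (s + 2 + 2) ^ 4 < E := by
          rw [← h5]; exact Nat.lt_add_of_pos_right (by positivity)
        clear h5
        generalize (s + 2 + 2) ^ 4 = X at h4 h6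
        omega
    · -- `r` odd
      have hB : P r (t + 2) = 1 := by
        apply P_eq_one
        intro h2
        have h3 := Nat.dvd_sub hA h2
        have h4 : t + 4 - (t + 2) = 2 := by omega
        rw [h4] at h3
        exact hr2 ((Nat.prime_dvd_prime_iff_eq hr Nat.prime_two).1 h3)
      have hPa : P r M = P r (t + 4) ^ 2 := by
        by_cases hr3 : r = 3
        · subst hr3
          have hg : Nat.gcd 3 (t + 4) = 3 := Nat.gcd_eq_left hA
          have h33 : P 3 3 = 3 := by
            have := P_pow_self (r := 3) (k := 1) (a := 1) Nat.prime_three (by norm_num)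
            simpa using this
          have hC : P 3 (t ^ 2 + 5 * t + 7) = 3 := by
            obtain ⟨c, hc⟩ := hA
            obtain ⟨b, hb⟩ : ∃ b, c = b + 2 := ⟨c - 2, by omega⟩
            have ht2 : t = 3 * b + 2 := by omega
            have h5 : t ^ 2 + 5 * t + 7 = 3 ^ 1 * (3 * (b ^ 2 + 3 * b + 2) + 1) := by rw [ht2]; ring
            rw [h5, P_pow_self Nat.prime_three]
            · norm_num
            · omega
          rw [hg, h33, hB, hC, one_mul] at hP
          have : 3 * P 3 M = 3 * P 3 (t + 4) ^ 2 := by rw [hP]; ring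
          exact Nat.eq_of_mul_eq_mul_left (by norm_num) this
        · have hC : P r (t ^ 2 + 5 * t + 7) = 1 := by
            apply P_eq_one
            intro h2
            have h3 : r ∣ (t + 4) * (t + 1) := hA.mul_right _
            have h4 := Nat.dvd_sub h2 h3
            have h5 : t ^ 2 + 5 * t + 7 - (t + 4) * (t + 1) = 3 := by
              have : t ^ 2 + 5 * t + 7 = (t + 4) * (t + 1) + 3 := by ring
              omega
            rw [h5] at h4
            exact hr3 ((Nat.prime_dvd_prime_iff_eq hr Nat.prime_three).1 h4)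
          have hd : P r (Nat.gcd 3 (t + 4)) = 1 := by
            apply P_eq_one
            intro h2
            exact hr3 ((Nat.prime_dvd_prime_iff_eq hr Nat.prime_three).1 (h2.trans (Nat.gcd_dvd_left _ _)))
          rw [hd, hB, hC, one_mul, one_mul, mul_one] at hP
          exact hP
      rcases P_eq_or hr (a := t + 4) (by omega) with h3 | h3
      · right
        exact ⟨h3, Or.inl ⟨hr2, by rw [hPa, h3]⟩⟩
      · left
        have h4 : 256 * (P r M) ^ 4 ≤ (t + 4) ^ 8 := by
          calc 256 * (P r M) ^ 4 = (2 * P r (t + 4)) ^ 8 := by rw [hPa]; ring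
            _ ≤ (t + 4) ^ 8 := Nat.pow_le_pow_left h3 8
        have h5 : (t + 4) ^ 8 + (84 * t ^ 8 + 2008 * t ^ 7 + 20887 * t ^ 6 + 123491 * t ^ 5 + 453830 * t ^ 4 +
          1061001 * t ^ 3 + 1539242 * t ^ 2 + 1264288 * t + 448544) = 85 * E := by
          rw [hEdef]; ring
        have h6 : (t + 4) ^ 8 < 85 * E := by
          rw [← h5]; exact Nat.lt_add_of_pos_right (by positivity)
        clear h5
        generalize (t + 4) ^ 8 = X at h4 h6
        omega
  · left
    have hA1 : P r (t + 4) = 1 := P_eq_one hA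
    have hd : P r (Nat.gcd 3 (t + 4)) = 1 := by
      apply P_eq_one
      intro h2
      exact hA (h2.trans (Nat.gcd_dvd_right _ _))
    rw [hd, hA1, one_mul, one_pow, mul_one] at hP
    have hBC : P r (t + 2) = 1 ∨ P r (t ^ 2 + 5 * t + 7) = 1 := by
      by_contra hcon
      push Not at hcon
      have h1 : r ∣ t + 2 := by
        by_contra h2; exact hcon.1 (P_eq_one h2)
      have h2 : r ∣ t ^ 2 + 5 * t + 7 := by
        by_contra h2; exact hcon.2 (P_eq_one h2)
      have h3 : r ∣ (t + 2) * (t + 3) := h1.mul_right _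
      have h4 := Nat.dvd_sub h2 h3
      have h5 : t ^ 2 + 5 * t + 7 - (t + 2) * (t + 3) = 1 := by
        have : t ^ 2 + 5 * t + 7 = (t + 2) * (t + 3) + 1 := by ring
        omega
      rw [h5] at h4
      exact hr.one_lt.ne' (Nat.dvd_one.1 h4)
    have hC3 : (t ^ 2 + 5 * t + 7) ^ 4 < E := by
      have h5 : (t ^ 2 + 5 * t + 7) ^ 3 + (4 * t ^ 5 + 53 * t ^ 4 + 282 * t ^ 3 + 750 * t ^ 2 + 993 * t + 521) =
        (t + 3) ^ 3 * ((t + 2) * (t + 4) ^ 2) := by ring
      calc (t ^ 2 + 5 * t + 7) ^ 4 = (t ^ 2 + 5 * t + 7) ^ 3 * (t ^ 2 + 5 * t + 7) := by ring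
        _ < ((t + 3) ^ 3 * ((t + 2) * (t + 4) ^ 2)) * (t ^ 2 + 5 * t + 7) := by
          apply Nat.mul_lt_mul_of_pos_right _ (by positivity)
          rw [← h5]; exact Nat.lt_add_of_pos_right (by positivity)
        _ = E := by rw [hEdef]; ring
    rcases gcd_three (t + 4) with ⟨h3, h4⟩ | ⟨h3, h4⟩
    · -- `d = 3`
      rw [h4] at hE
      have hr3 : r ≠ 3 := by rintro rfl; exact hA h3
      have hle : 3 * P r M ≤ t ^ 2 + 5 * t + 7 := by
        rcases hBC with h5 | h5
        · rw [hP, h5, one_mul]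
          have h6 : 3 ∣ t ^ 2 + 5 * t + 7 := by
            obtain ⟨c, hc⟩ := h3
            obtain ⟨b, hb⟩ : ∃ b, c = b + 2 := ⟨c - 2, by omega⟩
            have ht2 : t = 3 * b + 2 := by omega
            exact ⟨3 * (b ^ 2 + 3 * b + 2) + 1, by rw [ht2]; ring⟩
          obtain ⟨c, hc⟩ := h6
          have h7 : c ≠ 0 := by rintro rfl; omega
          have h8 : P r (t ^ 2 + 5 * t + 7) = P r c := by
            rw [hc, P_mul (by norm_num) h7, P_eq_one, one_mul]
            intro h9
            exact hr3 ((Nat.prime_dvd_prime_iff_eq hr Nat.prime_three).1 h9)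
          have h9 := P_le (r := r) h7
          rw [h8]
          omega
        · rw [hP, h5, mul_one]
          have h9 := P_le (r := r) (a := t + 2) (by omega)
          have h10 : 3 * (t + 2) ≤ t ^ 2 + 5 * t + 7 := by nlinarith
          omega
      have h5 : (3 * P r M) ^ 4 < 3 * M := by
        calc (3 * P r M) ^ 4 ≤ (t ^ 2 + 5 * t + 7) ^ 4 := Nat.pow_le_pow_left hle 4
          _ < E := hC3
          _ = _ := hE.symm
      have h6 : (3 * P r M) ^ 4 = 81 * P r M ^ 4 := by ring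
      omega
    · rw [h4, one_mul] at hE
      have hle : P r M ≤ t ^ 2 + 5 * t + 7 := by
        rcases hBC with h5 | h5
        · rw [hP, h5, one_mul]
          exact P_le (by positivity)
        · rw [hP, h5, mul_one]
          have h9 := P_le (r := r) (a := t + 2) (by omega)
          nlinarith
      calc (P r M) ^ 4 ≤ (t ^ 2 + 5 * t + 7) ^ 4 := Nat.pow_le_pow_left hle 4
        _ < E := hC3
        _ = _ := hE.symm

end Cfsg.Agent.H725.Cd
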