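import Mathlib
import Cfsg.Agent.H725.Cd.U3

/-!
# Codegrees of simple groups (helper725, S4795): `H = U_3(q)` in cross characteristic, the main theorem
-/

set_option autoImplicit false

namespace Cfsg.Agent.H725.Cd

open Finset Cfsg.Agent.H902.Art

/-- the bounds on `M` -/
theorem bound4 {Y : H902.Art.Sh} {r g k N M R : ℕ} (hY : H902.Art.Real Y r g N) (hk : M = k * N)
    (hlt : k * P r N ^ 2 < N) (hR : P r N ≤ R) : M < R ^ 4 := by
  have h5 := hY.lt_cube
  have hP0 : 0 < P r N := P_pos hY.hp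
  have h7 : k < P r N := by
    have h8 : k * P r N ^ 2 < P r N * P r N ^ 2 := by
      calc k * P r N ^ 2 < N := hlt
        _ < P r N ^ 3 := h5
        _ = P r N * P r N ^ 2 := by ring
    exact Nat.lt_of_mul_lt_mul_right h8
  calc M = k * N := hk
    _ ≤ P r N * N := Nat.mul_le_mul_right _ h7.le
    _ < P r N * P r N ^ 3 := Nat.mul_lt_mul_of_pos_left h5 hP0
    _ = P r N ^ 4 := by ring
    _ ≤ R ^ 4 := Nat.pow_le_pow_left hR 4

/-- the better bound if `Y ≠ L_2` -/
theorem bound10 {Y : H902.Art.Sh} {r g k N M R : ℕ} (hY : H902.Art.Real Y r g N) (hYL : Y ≠ .L 2) (hk : M = k * N)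
    (hlt : k * P r N ^ 2 < N) (hR : P r N ≤ R) : M ^ 3 < R ^ 10 := by
  have h5 := hY.cube hYL
  have hP0 : 0 < P r N := P_pos hY.hp
  have hN0 : 0 < N := Nat.pos_of_ne_zero hY.M_ne
  have h7 : k ^ 3 < P r N ^ 2 := by
    have h8 : k ^ 3 * P r N ^ 6 < P r N ^ 2 * P r N ^ 6 := by
      calc k ^ 3 * P r N ^ 6 = (k * P r N ^ 2) ^ 3 := by ring
        _ < N ^ 3 := Nat.pow_lt_pow_left hlt (by norm_num)
        _ ≤ P r N ^ 8 := h5
        _ = P r N ^ 2 * P r N ^ 6 := by ring
    exact Nat.lt_of_mul_lt_mul_right h8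
  calc M ^ 3 = k ^ 3 * N ^ 3 := by rw [hk]; ring
    _ < P r N ^ 2 * N ^ 3 := Nat.mul_lt_mul_of_pos_right h7 (by positivity)
    _ ≤ P r N ^ 2 * P r N ^ 8 := Nat.mul_le_mul_left _ h5
    _ = P r N ^ 10 := by ring
    _ ≤ R ^ 10 := Nat.pow_le_pow_left hR 10

theorem poly_a (s : ℕ) : 27 * (s + 3 + 4) ^ 14 < (s + 3 + 3) ^ 9 * ((s + 3 + 2) ^ 3 * ((s + 3) ^ 2 + 5 * (s + 3) + 7) ^ 3) := by
  have h : 27 * (s + 3 + 4) ^ 14 + (s ^ 18 + 102 * s ^ 17 + 4914 * s ^ 16 + 148573 * s ^ 15 + 3159111 * s ^ 14 +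
    50164206 * s ^ 13 + 616464962 * s ^ 12 + 5993929818 * s ^ 11 + 46733846055 * s ^ 10 + 294256152197 * s ^ 9 +
    1498724982873 * s ^ 8 + 6153051805416 * s ^ 7 + 20173483946727 * s ^ 6 + 51944485933206 * s ^ 5 +
    102218839639389 * s ^ 4 + 147080045585412 * s ^ 3 + 143499386144583 * s ^ 2 + 82134169125354 * s + 19216057225077) =
    (s + 3 + 3) ^ 9 * ((s + 3 + 2) ^ 3 * ((s + 3) ^ 2 + 5 * (s + 3) + 7) ^ 3) := by ring
  rw [← h]
  exact Nat.lt_add_of_pos_right (Nat.add_pos_right _ (by norm_num))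

theorem poly_b (s : ℕ) :
    1024 * (s + 12 + 4) ^ 14 < (s + 12 + 3) ^ 9 * ((s + 12 + 2) ^ 3 * ((s + 12) ^ 2 + 5 * (s + 12) + 7) ^ 3) := by
  have h : 1024 * (s + 12 + 4) ^ 14 + (s ^ 18 + 264 * s ^ 17 + 32913 * s ^ 16 + 2574685 * s ^ 15 + 141619649 * s ^ 14 +
    5816373781 * s ^ 13 + 184843333996 * s ^ 12 + 4647424395851 * s ^ 11 + 93707016001297 * s ^ 10 +
    1526402546099626 * s ^ 9 + 20130961533039813 * s ^ 8 + 214404527450936967 * s ^ 7 + 1829849504345305563 * s ^ 6 +
    12339909222607659797 * s ^ 5 + 64275341121196102126 * s ^ 4 + 249351971969846823449 * s ^ 3 +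
    677856194989383137546 * s ^ 2 + 1150946556143452506844 * s + 917165447899521168536) =
    (s + 12 + 3) ^ 9 * ((s + 12 + 2) ^ 3 * ((s + 12) ^ 2 + 5 * (s + 12) + 7) ^ 3) := by ring
  rw [← h]
  exact Nat.lt_add_of_pos_right (Nat.add_pos_right _ (by norm_num))

theorem poly_c (t : ℕ) : (t + 4) ^ 8 < 108 * ((t + 3) ^ 3 * ((t + 2) * (t + 4) ^ 2 * (t ^ 2 + 5 * t + 7))) := by
  have h : (t + 4) ^ 8 + (107 * t ^ 8 + 2560 * t ^ 7 + 26660 * t ^ 6 + 157876 * t ^ 5 + 581480 * t ^ 4 + 1363612 * t ^ 3 +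
    1986776 * t ^ 2 + 1641856 * t + 587648) = 108 * ((t + 3) ^ 3 * ((t + 2) * (t + 4) ^ 2 * (t ^ 2 + 5 * t + 7))) := by
    ring
  rw [← h]
  exact Nat.lt_add_of_pos_right (Nat.add_pos_right _ (by norm_num))

theorem poly_d (t : ℕ) : (t + 4) ^ 8 < 16 * ((t + 3) ^ 3 * ((t + 2) * (t + 4) ^ 2 * (t ^ 2 + 5 * t + 7))) := by
  have h : (t + 4) ^ 8 + (15 * t ^ 8 + 352 * t ^ 7 + 3568 * t ^ 6 + 20336 * t ^ 5 + 70880 * t ^ 4 + 153168 * t ^ 3 +
    196640 * t ^ 2 + 131584 * t + 31232) = 16 * ((t + 3) ^ 3 * ((t + 2) * (t + 4) ^ 2 * (t ^ 2 + 5 * t + 7))) := by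
    ring
  rw [← h]
  exact Nat.lt_add_of_pos_right (Nat.add_pos_right _ (by norm_num))

theorem fin_a : ∀ a ∈ Nat.divisors 168, 5 ≤ a →
    ((2 * (a - 5 + 3) ^ 2 * (a - 5 + 2) * ((a - 5) ^ 2 + 5 * (a - 5) + 7)) %
      ((a - 5 + 5) * ((a - 5) ^ 2 + 8 * (a - 5) + 17)) = 0) → a - 5 = 1 := by decide +kernel

theorem fin_b : ∀ a ∈ Nat.divisors 84, 5 ≤ a →
    (((a - 5 + 3) ^ 2 * (a - 5 + 2) * ((a - 5) ^ 2 + 5 * (a - 5) + 7)) %
      ((a - 5 + 5) * ((a - 5) ^ 2 + 8 * (a - 5) + 17)) = 0) → a - 5 = 1 := by decide +kernel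

/-- the first divisibility -/
theorem dvd_a {t c : ℕ} (h : c * ((t + 5) * (t ^ 2 + 8 * t + 17)) = 2 * (t + 3) ^ 2 * (t + 2) * (t ^ 2 + 5 * t + 7)) :
    t = 1 := by
  have h1 : t + 5 ∣ 168 := by
    have h2 : t + 5 ∣ 2 * (t + 3) ^ 2 * (t + 2) * (t ^ 2 + 5 * t + 7) := by
      rw [← h, ← mul_assoc]
      exact (Dvd.intro_left c rfl).mul_right _
    have h3 : t + 5 ∣ 2 * (t + 3) ^ 2 * (t + 2) * (t ^ 2 + 5 * t + 7) + 168 :=
      ⟨2 * t ^ 4 + 16 * t ^ 3 + 56 * t ^ 2 + 78 * t + 84, by ring⟩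
    exact (Nat.dvd_add_right h2).1 h3
  have h2 := fin_a (t + 5) (Nat.mem_divisors.2 ⟨h1, by norm_num⟩) (by omega)
  rw [Nat.add_sub_cancel] at h2
  apply h2
  rw [← h]
  exact Nat.mul_mod_left _ _

/-- the second divisibility -/
theorem dvd_b {t c : ℕ} (h : c * ((t + 5) * (t ^ 2 + 8 * t + 17)) = (t + 3) ^ 2 * (t + 2) * (t ^ 2 + 5 * t + 7)) :
    t = 1 := by
  have h1 : t + 5 ∣ 84 := by
    have h2 : t + 5 ∣ (t + 3) ^ 2 * (t + 2) * (t ^ 2 + 5 * t + 7) := by
      rw [← h, ← mul_assoc]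
      exact (Dvd.intro_left c rfl).mul_right _
    have h3 : t + 5 ∣ (t + 3) ^ 2 * (t + 2) * (t ^ 2 + 5 * t + 7) + 84 :=
      ⟨t ^ 4 + 8 * t ^ 3 + 28 * t ^ 2 + 39 * t + 42, by ring⟩
    exact (Nat.dvd_add_right h2).1 h3
  have h2 := fin_b (t + 5) (Nat.mem_divisors.2 ⟨h1, by norm_num⟩) (by omega)
  rw [Nat.add_sub_cancel] at h2
  apply h2
  rw [← h]
  exact Nat.mul_mod_left _ _

/-- the third divisibility -/
theorem dvd_c {t c : ℕ} (h : c * (2 * t ^ 2 + 16 * t + 31) = (t + 3) ^ 3 * ((t + 2) * (t ^ 2 + 5 * t + 7))) : t < 12 := by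
  by_contra hlt
  have hco : Nat.Coprime (2 * t ^ 2 + 16 * t + 31) (t + 3) := by
    have h1 : 2 * t ^ 2 + 16 * t + 31 = 1 + (t + 3) * (2 * t + 10) := by ring
    rw [h1]
    exact (Nat.coprime_add_mul_left_left 1 (t + 3) (2 * t + 10)).2 (Nat.coprime_one_left _)
  have h2 : 2 * t ^ 2 + 16 * t + 31 ∣ (t + 2) * (t ^ 2 + 5 * t + 7) :=
    (Nat.Coprime.pow_right 3 hco).dvd_of_dvd_mul_left (by rw [← h]; exact Dvd.intro_left c rfl)
  obtain ⟨s, rfl⟩ : ∃ s, t = s + 1 := ⟨t - 1, by omega⟩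
  have h3 : 2 * (s + 1) ^ 2 + 16 * (s + 1) + 31 ∣ 19 * (s + 1) + 59 := by
    have h4 : 2 * (s + 1) ^ 2 + 16 * (s + 1) + 31 ∣ 2 * ((s + 1 + 2) * ((s + 1) ^ 2 + 5 * (s + 1) + 7)) := h2.mul_left 2
    have h5 : 2 * ((s + 1 + 2) * ((s + 1) ^ 2 + 5 * (s + 1) + 7)) =
        (2 * (s + 1) ^ 2 + 16 * (s + 1) + 31) * s + (19 * (s + 1) + 59) := by ring
    rw [h5] at h4
    exact (Nat.dvd_add_right (Dvd.intro _ rfl)).1 h4
  have h4 := Nat.le_of_dvd (by omega) h3
  nlinarith

set_option maxHeartbeats 1000000 in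
/-- **`H = U_3(q)`.** -/
theorem u3_cross {p f M : ℕ} (hX : H902.Art.Real (.U 3) p f M) {Y : H902.Art.Sh} {r g k N : ℕ}
    (hY : H902.Art.Real Y r g N) (hrp : r ≠ p) (hk : M = k * N) (hlt : k * P r N ^ 2 < N) :
    N = M ∨ (M = 62400 ∧ p = 2 ∧ f = 2 ∧ r = 5 ∧ g = 2 ∧ Y = .L 2 ∧ k = 8) := by
  obtain ⟨t, ht, hE⟩ := U3_eq hX
  have hr := hY.hp
  have hp := hX.hp
  have hM0 := hX.M_ne
  have hN0 := hY.M_ne
  have hk0 : k ≠ 0 := by rintro rfl; exact hM0 (by rw [hk, zero_mul])
  have hRle : P r N ≤ P r M := P_mono hr hM0 (by rw [hk]; exact dvd_mul_left _ _)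
  have hb4 := bound4 hY hk hlt hRle
  rcases U3_or hX ht hE hr hrp with h1 | ⟨hA, ⟨hr2, hPM⟩ | ⟨hr2, hPM⟩⟩
  · omega
  · -- `r` odd
    have hrA : r ∣ t + 4 := by
      by_contra h1
      rw [P_eq_one h1] at hA
      omega
    have hodd : Odd (t + 4) := by
      rw [← Nat.not_even_iff_odd]
      intro h1
      have h2 : 2 ∣ r ^ (t + 4).factorization r := by
        have : P r (t + 4) = r ^ (t + 4).factorization r := rfl
        rw [← this, hA]
        exact even_iff_two_dvd.1 h1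
      exact hr2 ((Nat.prime_dvd_prime_iff_eq Nat.prime_two hr).1 (Nat.prime_two.dvd_of_dvd_pow h2)).symm
    have hE3 : (t + 3) ^ 3 * ((t + 2) * (t + 4) ^ 2 * (t ^ 2 + 5 * t + 7)) ≤ 3 * M := by
      rw [← hE]
      exact Nat.mul_le_mul_right _ (Nat.gcd_le_left _ (by norm_num))
    -- the case `t = 1`
    have ht1 : t = 1 → M = 62400 ∧ p = 2 ∧ f = 2 ∧ r = 5 := by
      rintro rfl
      have h2 : Nat.gcd 3 (1 + 4) = 1 := by decide
      rw [h2, one_mul] at hE
      have h3 : p ^ f = 4 := ht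
      have hp2 : p = 2 := by
        have h4 : p ∣ 2 ^ 2 := by
          rw [show (2 : ℕ) ^ 2 = 4 by norm_num, ← h3]
          exact dvd_pow_self p (by have := hX.hf; omega)
        exact (Nat.prime_dvd_prime_iff_eq hp Nat.prime_two).1 (hp.dvd_of_dvd_pow h4)
      refine ⟨by rw [hE]; norm_num, hp2, ?_, ?_⟩
      · rw [hp2] at h3
        exact Nat.pow_right_injective (le_refl 2) (h3.trans (by norm_num))
      · exact (Nat.prime_dvd_prime_iff_eq hr (by norm_num)).1 hrA
    by_cases hYL : Y = .L 2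
    · subst hYL
      obtain ⟨hs4, hc2⟩ := L2_eq hY
      rcases hc2 with ⟨h2, -⟩ | ⟨-, hsodd, hN⟩
      · exact absurd h2 hr2
      have hPs : P r N = r ^ g := by
        have := hY.P_self
        have h1 : NN (.L 2) = 1 := rfl
        rwa [h1, pow_one] at this
      rw [hPs] at hlt
      set s := r ^ g with hs
      -- `2 k < s`
      obtain ⟨s', hs'⟩ := Nat.exists_eq_add_of_le' (show 1 ≤ s by omega)
      have hs1 : s - 1 = s' := by omega
      rw [hs1] at hN
      have h2k : 2 * k < s := by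
        have h3 : s * (s * (2 * k)) < s * (s' * (s + 1)) := by
          calc s * (s * (2 * k)) = 2 * (k * s ^ 2) := by ring
            _ < 2 * N := by omega
            _ = _ := hN
        have h4 := Nat.lt_of_mul_lt_mul_left h3
        have h5 : s' * (s + 1) < s * s := by rw [hs']; nlinarith
        exact Nat.lt_of_mul_lt_mul_left (h4.trans h5)
      have hPk : P r M = P r k * s := by rw [hk, P_mul hk0 hN0, hPs]
      by_cases hrk : r ∣ k
      · -- `r ∣ k`
        exfalso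
        have h3 : 3 ≤ P r k := by
          have h4 : r ∣ P r k := by
            unfold P
            apply dvd_pow_self
            have := (hr.dvd_iff_one_le_factorization hk0).1 hrk
            omega
          have h5 := Nat.le_of_dvd (P_pos hr) h4
          have := hr.two_le
          omega
        have h4 : 3 * s ≤ (t + 4) ^ 2 := by
          rw [← hPM, hPk]
          exact Nat.mul_le_mul_right _ h3
        have h5 : 324 * M < (t + 4) ^ 8 := by
          calc 324 * M = 81 * ((2 * k) * (2 * N)) := by rw [hk]; ring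
            _ ≤ 81 * (s * (2 * N)) := by
              apply Nat.mul_le_mul_left
              exact Nat.mul_le_mul_right _ h2k.le
            _ = 81 * (s * (s * (s' * (s + 1)))) := by rw [hN]
            _ < 81 * (s * (s * (s * s))) := by
              apply Nat.mul_lt_mul_of_pos_left _ (by norm_num)
              apply Nat.mul_lt_mul_of_pos_left _ (by omega)
              apply Nat.mul_lt_mul_of_pos_left _ (by omega)
              rw [hs']; nlinarith
            _ = (3 * s) ^ 4 := by ring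
            _ ≤ ((t + 4) ^ 2) ^ 4 := Nat.pow_le_pow_left h4 4
            _ = (t + 4) ^ 8 := by ring
        have h6 := poly_c t
        omega
      · -- `s = (t + 4) ^ 2`
        right
        rw [P_eq_one hrk, one_mul, hPM] at hPk
        have hs2 : s' = (t + 3) * (t + 5) := by
          have : s' + 1 = (t + 3) * (t + 5) + 1 := by rw [← hs', ← hPk]; ring
          omega
        have hs3 : s + 1 = t ^ 2 + 8 * t + 17 := by rw [← hPk]; ring
        have heq : (Nat.gcd 3 (t + 4) * k) * ((t + 5) * (t ^ 2 + 8 * t + 17)) =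
            2 * (t + 3) ^ 2 * (t + 2) * (t ^ 2 + 5 * t + 7) := by
          apply Nat.eq_of_mul_eq_mul_left (show 0 < (t + 4) ^ 2 * (t + 3) by positivity)
          calc (t + 4) ^ 2 * (t + 3) * ((Nat.gcd 3 (t + 4) * k) * ((t + 5) * (t ^ 2 + 8 * t + 17)))
              = (Nat.gcd 3 (t + 4) * k) * ((t + 4) ^ 2 * (((t + 3) * (t + 5)) * (t ^ 2 + 8 * t + 17))) := by ring
            _ = (Nat.gcd 3 (t + 4) * k) * (s * (s' * (s + 1))) := by rw [hs2, hs3, hPk]
            _ = 2 * (Nat.gcd 3 (t + 4) * M) := by rw [← hN, hk]; ring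
            _ = _ := by rw [hE]; ring
        have ht1' := dvd_a heq
        obtain ⟨h7, h8, h9, h10⟩ := ht1 ht1'
        refine ⟨h7, h8, h9, h10, ?_, rfl, ?_⟩
        · rw [ht1'] at hPk
          have : (5 : ℕ) ^ g = 5 ^ 2 := by
            have h12 : (5 : ℕ) ^ g = s := by rw [hs, h10]
            rw [h12, ← hPk]
          exact Nat.pow_right_injective (by norm_num : 2 ≤ 5) this
        · rw [ht1'] at heq
          have h11 : Nat.gcd 3 (1 + 4) = 1 := by decide
          rw [h11] at heq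
          omega
    · exfalso
      have hb := bound10 hY hYL hk hlt hRle
      rw [hPM] at hb
      rcases Nat.lt_or_ge t 3 with h2 | h2
      · have h3 : t = 1 := by
          obtain ⟨c, hc⟩ := hodd
          omega
        have h4 := (ht1 h3).1
        rw [h4, h3] at hb
        norm_num at hb
      · obtain ⟨s, rfl⟩ := Nat.exists_eq_add_of_le' h2
        have h3 := poly_a s
        have h4 : ((s + 3 + 3) ^ 3 * ((s + 3 + 2) * (s + 3 + 4) ^ 2 * ((s + 3) ^ 2 + 5 * (s + 3) + 7))) ^ 3 <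
            27 * ((s + 3 + 4) ^ 2) ^ 10 := by
          calc _ ≤ (3 * M) ^ 3 := Nat.pow_le_pow_left hE3 3
            _ = 27 * M ^ 3 := by ring
            _ < _ := Nat.mul_lt_mul_of_pos_left hb (by norm_num)
        have h5 : (s + 3 + 4) ^ 6 * ((s + 3 + 3) ^ 9 * ((s + 3 + 2) ^ 3 * ((s + 3) ^ 2 + 5 * (s + 3) + 7) ^ 3)) <
            (s + 3 + 4) ^ 6 * (27 * (s + 3 + 4) ^ 14) := by
          calc _ = ((s + 3 + 3) ^ 3 * ((s + 3 + 2) * (s + 3 + 4) ^ 2 * ((s + 3) ^ 2 + 5 * (s + 3) + 7))) ^ 3 := by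
                simp only [mul_pow, ← pow_mul]
                ring
            _ < _ := h4
            _ = _ := by rw [← pow_mul]; rw [mul_left_comm, ← pow_add]
        exact absurd (Nat.lt_of_mul_lt_mul_left h5) (not_lt.2 h3.le)
  · -- `r = 2`
    subst hr2
    have hd3 : ¬ 3 ∣ t + 4 := by
      intro h1
      have h2 : 3 ∣ 2 ^ (t + 4).factorization 2 := by
        have : P 2 (t + 4) = 2 ^ (t + 4).factorization 2 := rfl
        rw [← this, hA]
        exact h1
      have h3 := Nat.prime_three.dvd_of_dvd_pow h2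
      revert h3
      decide
    have hg1 : Nat.gcd 3 (t + 4) = 1 := (Nat.Prime.coprime_iff_not_dvd Nat.prime_three).2 hd3
    rw [hg1, one_mul] at hE
    -- small cases
    have hsm : t = 0 ∨ t = 4 ∨ 12 ≤ t := by
      by_contra hcon
      push Not at hcon
      have h1 : t + 4 = 2 ^ (t + 4).factorization 2 := hA.symm
      have h2 : 2 ^ (t + 4).factorization 2 < 2 ^ 4 := by rw [← h1]; omega
      have h3 := (Nat.pow_lt_pow_iff_right (by norm_num : 1 < 2)).1 h2
      set e := (t + 4).factorization 2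
      interval_cases e <;> omega
    rcases hsm with rfl | rfl | h12
    · left
      have hp3 : p = 3 := by
        have h4 : p ∣ 3 := by
          rw [← show p ^ f = 3 from ht]
          exact dvd_pow_self p (by have := hX.hf; omega)
        exact (Nat.prime_dvd_prime_iff_eq hp Nat.prime_three).1 h4
      have hM : M = 6048 := by rw [hE]; norm_num
      subst hp3
      rw [hM]
      exact small_iso (p := 3) (by decide) hY (hM ▸ hk) hrp hlt
    · left
      have hp7 : p = 7 := by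
        have h4 : p ∣ 7 := by
          rw [← show p ^ f = 7 from ht]
          exact dvd_pow_self p (by have := hX.hf; omega)
        exact (Nat.prime_dvd_prime_iff_eq hp (by norm_num)).1 h4
      have hM : M = 5663616 := by rw [hE]; norm_num
      subst hp7
      rw [hM]
      exact small_iso (p := 7) (by decide) hY (hM ▸ hk) hrp hlt
    exfalso
    by_cases hYL : Y = .L 2
    · subst hYL
      obtain ⟨hs4, hc2⟩ := L2_eq hY
      rcases hc2 with ⟨-, hN⟩ | ⟨h2, -⟩
      swap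
      · exact absurd rfl h2
      have hPs : P 2 N = 2 ^ g := by
        have := hY.P_self
        have h1 : NN (.L 2) = 1 := rfl
        rwa [h1, pow_one] at this
      rw [hPs] at hlt
      set s := 2 ^ g with hs
      obtain ⟨s', hs'⟩ := Nat.exists_eq_add_of_le' (show 1 ≤ s by omega)
      have hs1 : s - 1 = s' := by omega
      rw [hs1] at hN
      have h2k : k < s := by
        have h3 : s * (s * k) < s * (s' * (s + 1)) := by
          calc s * (s * k) = (k * s ^ 2) := by ring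
            _ < N := hlt
            _ = _ := hN
        have h4 := Nat.lt_of_mul_lt_mul_left h3
        have h5 : s' * (s + 1) < s * s := by rw [hs']; nlinarith
        exact Nat.lt_of_mul_lt_mul_left (h4.trans h5)
      have hPk : P 2 M = P 2 k * s := by rw [hk, P_mul hk0 hN0, hPs]
      rw [hPM] at hPk
      have hcase : P 2 k = 1 ∨ P 2 k = 2 ∨ 4 ≤ P 2 k := by
        unfold P
        rcases Nat.lt_or_ge (k.factorization 2) 2 with h3 | h3
        · set e := k.factorization 2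
          interval_cases e <;> norm_num
        · right; right
          calc 4 = 2 ^ 2 := by norm_num
            _ ≤ _ := Nat.pow_le_pow_right (by norm_num) h3
      rcases hcase with h3 | h3 | h3
      · -- `s = 2 (t + 4) ^ 2`
        rw [h3, one_mul] at hPk
        have h4 : (2 * k * (2 * t ^ 2 + 16 * t + 33)) * (2 * t ^ 2 + 16 * t + 31) =
            (t + 3) ^ 3 * ((t + 2) * (t ^ 2 + 5 * t + 7)) := by
          have hs2 : s' = 2 * t ^ 2 + 16 * t + 31 := by
            have : s' + 1 = 2 * t ^ 2 + 16 * t + 31 + 1 := by rw [← hs', ← hPk]; ring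
            omega
          have hs3 : s + 1 = 2 * t ^ 2 + 16 * t + 33 := by rw [← hPk]; ring
          apply Nat.eq_of_mul_eq_mul_left (show 0 < (t + 4) ^ 2 by positivity)
          calc (t + 4) ^ 2 * ((2 * k * (2 * t ^ 2 + 16 * t + 33)) * (2 * t ^ 2 + 16 * t + 31))
              = k * ((2 * (t + 4) ^ 2) * ((2 * t ^ 2 + 16 * t + 31) * (2 * t ^ 2 + 16 * t + 33))) := by ring
            _ = k * (s * (s' * (s + 1))) := by rw [hs2, hs3, hPk]
            _ = M := by rw [← hN, hk]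
            _ = _ := by rw [hE]; ring
        have h5 := dvd_c h4
        omega
      · -- `s = (t + 4) ^ 2`
        rw [h3] at hPk
        have hPk' : (t + 4) ^ 2 = s := Nat.eq_of_mul_eq_mul_left (by norm_num) hPk
        have hs2 : s' = (t + 3) * (t + 5) := by
          have : s' + 1 = (t + 3) * (t + 5) + 1 := by rw [← hs', ← hPk']; ring
          omega
        have hs3 : s + 1 = t ^ 2 + 8 * t + 17 := by rw [← hPk']; ring
        have heq : k * ((t + 5) * (t ^ 2 + 8 * t + 17)) = (t + 3) ^ 2 * (t + 2) * (t ^ 2 + 5 * t + 7) := by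
          apply Nat.eq_of_mul_eq_mul_left (show 0 < (t + 4) ^ 2 * (t + 3) by positivity)
          calc (t + 4) ^ 2 * (t + 3) * (k * ((t + 5) * (t ^ 2 + 8 * t + 17)))
              = k * ((t + 4) ^ 2 * (((t + 3) * (t + 5)) * (t ^ 2 + 8 * t + 17))) := by ring
            _ = k * (s * (s' * (s + 1))) := by rw [hs2, hs3, hPk']
            _ = M := by rw [← hN, hk]
            _ = _ := by rw [hE]; ring
        have := dvd_b heq
        omega
      · -- `2 s ≤ (t + 4) ^ 2`
        have h4 : 2 * s ≤ (t + 4) ^ 2 := by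
          have : 4 * s ≤ 2 * (t + 4) ^ 2 := by rw [hPk]; exact Nat.mul_le_mul_right _ h3
          omega
        have h5 : 16 * M < (t + 4) ^ 8 := by
          calc 16 * M = 16 * (k * N) := by rw [hk]
            _ ≤ 16 * (s * N) := Nat.mul_le_mul_left _ (Nat.mul_le_mul_right _ h2k.le)
            _ = 16 * (s * (s * (s' * (s + 1)))) := by rw [hN]
            _ < 16 * (s * (s * (s * s))) := by
              apply Nat.mul_lt_mul_of_pos_left _ (by norm_num)
              apply Nat.mul_lt_mul_of_pos_left _ (by omega)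
              apply Nat.mul_lt_mul_of_pos_left _ (by omega)
              rw [hs']; nlinarith
            _ = (2 * s) ^ 4 := by ring
            _ ≤ ((t + 4) ^ 2) ^ 4 := Nat.pow_le_pow_left h4 4
            _ = (t + 4) ^ 8 := by ring
        have h6 := poly_d t
        rw [← hE] at h6
        omega
    · have hb := bound10 hY hYL hk hlt hRle
      rw [hPM] at hb
      obtain ⟨s, rfl⟩ := Nat.exists_eq_add_of_le' h12
      have h3 := poly_b s
      rw [hE] at hb
      have h5 : (s + 12 + 4) ^ 6 * ((s + 12 + 3) ^ 9 * ((s + 12 + 2) ^ 3 * ((s + 12) ^ 2 + 5 * (s + 12) + 7) ^ 3)) <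
          (s + 12 + 4) ^ 6 * (1024 * (s + 12 + 4) ^ 14) := by
        calc _ = ((s + 12 + 3) ^ 3 * ((s + 12 + 2) * (s + 12 + 4) ^ 2 * ((s + 12) ^ 2 + 5 * (s + 12) + 7))) ^ 3 := by
              simp only [mul_pow, ← pow_mul]
              ring
          _ < _ := hb
          _ = _ := by
            rw [mul_pow, ← pow_mul, mul_left_comm, ← pow_add]
            norm_num
      exact absurd (Nat.lt_of_mul_lt_mul_left h5) (not_lt.2 h3.le)

end Cfsg.Agent.H725.Cd
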