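import Mathlib
import Cfsg.Agent.H725.Cd.U3Cross
import Cfsg.Agent.H902.Cross

/-!
# Codegrees of simple groups (helper725, S4795): `H = U_3(q)` in cross characteristic, the form of the plan
-/

set_option autoImplicit false

namespace Cfsg.Agent.H725.Cd

open Cfsg.Agent.H902

theorem cross_U3 {Y : Art.Sh} {p r f g N M k : ℕ} (hX : Art.Real (.U 3) p f N)
    (hY : Art.Real Y r g M) (hr : r ≠ p) (hk : N = k * M) (hlt : k * Art.P r M ^ 2 < M) :
    Y = .L 2 ∧ r ^ g = 25 ∧ N = 62400 ∧ k = 8 := by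
  rcases u3_cross hX hY hr hk hlt with h | ⟨h1, -, -, rfl, rfl, h4, h5⟩
  · exfalso
    subst h
    have h1 := Art.cross_char hX hY (Ne.symm hr)
    obtain ⟨t, -, h2⟩ := U3_eq hX
    have h3 : Nat.gcd 3 (t + 4) ≤ 3 := Nat.gcd_le_left _ (by norm_num)
    have h4 : (t + 3) ^ 3 * ((t + 2) * (t + 4) ^ 2 * (t ^ 2 + 5 * t + 7)) ≤ 3 * 25920 := by
      rw [← h2]
      exact Nat.mul_le_mul h3 (by omega)
    have h5 : t < 2 := by
      by_contra hge
      obtain ⟨s, rfl⟩ := Nat.exists_eq_add_of_le' (not_lt.1 hge)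
      have h6 : 378000 ≤ (s + 2 + 3) ^ 3 * ((s + 2 + 2) * (s + 2 + 4) ^ 2 * ((s + 2) ^ 2 + 5 * (s + 2) + 7)) := by
        calc 378000 = 5 ^ 3 * (4 * 6 ^ 2 * 21) := by norm_num
          _ ≤ _ := by
            gcongr
            · omega
            · omega
            · omega
            · nlinarith
      omega
    interval_cases t
    · norm_num at h2
      omega
    · norm_num at h2
      omega
  · exact ⟨h4, by norm_num, h1, h5⟩

end Cfsg.Agent.H725.Cd
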